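import Cfsg.Agent.H602.DP.Def
import Cfsg.Agent.H667.HerFinIso

/-!
# S4247, row `PSp`: the isometries trivial on the orthogonal space of `U` (helper199)

`GV_iso` : for a nondegenerate subspace `U` the group `GV U` is isomorphic to a symplectic group.
-/

set_option autoImplicit false
set_option linter.unusedSectionVars false

namespace Cfsg.Agent.H199.DP

open Module Subgroup Cfsg Matrix Cfsg.Agent.H167.OP Cfsg.Agent.H170.HL Cfsg.Agent.H572.RV Cfsg.Agent.H602.DP

variable {F : Type*} [Field F] [Finite F] {m : ℕ} {U : Submodule F (Fin m ⊕ Fin m → F)}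

theorem frm_self (u : Fin m ⊕ Fin m → F) : SpRow.frm m F u u = 0 := by
  rw [SpRow.frm_apply]
  have h1 : J (Fin m) F *ᵥ u = Sum.elim (-(u ∘ Sum.inr)) (u ∘ Sum.inl) := by
    conv_lhs => rw [← Sum.elim_comp_inl_inr u]
    rw [J, fromBlocks_mulVec]
    simp [neg_mulVec]
  rw [h1]
  conv_lhs => rw [← Sum.elim_comp_inl_inr u]
  rw [sumElim_dotProduct_sumElim, dotProduct_neg, dotProduct_comm]
  simp

theorem frm_eq_zero_comm {x y : Fin m ⊕ Fin m → F} (h : SpRow.frm m F x y = 0) : SpRow.frm m F y x = 0 := by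
  rw [SpRow.frm_sym, h, mul_zero]

theorem orth_nd (hU : ND (SpRow.frm m F) U) : ND (SpRow.frm m F) (Orth (SpRow.frm m F) U) := by
  intro w hw h
  apply SpRow.frm_nondeg
  intro y
  obtain ⟨u, hu, w', hw', rfl⟩ := decomp hU y
  rw [map_add, LinearMap.add_apply, hw u hu, h w' hw', add_zero]

/-- `GV U` preserves `U` -/
theorem map_mem (hU : ND (SpRow.frm m F) U) {g : symplecticGroup (Fin m) F} (hg : g ∈ GV U)
    {u : Fin m ⊕ Fin m → F} (hu : u ∈ U) : rep (SpRow.inc m F) g u ∈ U := by
  obtain ⟨u', hu', w', hw', he⟩ := decomp hU (rep (SpRow.inc m F) g u)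
  have h1 : w' = 0 := by
    apply orth_nd hU w' hw'
    intro w hw
    apply frm_eq_zero_comm
    have h2 : SpRow.frm m F (rep (SpRow.inc m F) g u) (rep (SpRow.inc m F) g w) = 0 := by
      rw [SpRow.frm_iso]; exact hw u hu
    rw [hg w hw, he, map_add, LinearMap.add_apply, hw u' hu', zero_add] at h2
    exact h2
  rw [he, h1, add_zero]
  exact hu'

/-- the action on `U` -/
noncomputable def act (hU : ND (SpRow.frm m F) U) : GV U →* (U ≃ₗ[F] U) where
  toFun g := LinearEquiv.ofLinearMap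
    ((rep (SpRow.inc m F) (g : symplecticGroup (Fin m) F)).restrict (fun _ hu => map_mem hU g.2 hu))
    ((rep (SpRow.inc m F) ((g⁻¹ : GV U) : symplecticGroup (Fin m) F)).restrict
      (fun _ hu => map_mem hU (g⁻¹).2 hu))
    (by
      ext u : 2
      change rep (SpRow.inc m F) (g : symplecticGroup (Fin m) F)
        (rep (SpRow.inc m F) (g : symplecticGroup (Fin m) F)⁻¹ (u : Fin m ⊕ Fin m → F)) = u
      exact ap_inv _ _ _)
    (by
      ext u : 2
      change rep (SpRow.inc m F) (g : symplecticGroup (Fin m) F)⁻¹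
        (rep (SpRow.inc m F) (g : symplecticGroup (Fin m) F) (u : Fin m ⊕ Fin m → F)) = u
      exact inv_ap _ _ _)
  map_one' := by
    ext u : 2
    change rep (SpRow.inc m F) 1 (u : Fin m ⊕ Fin m → F) = u
    exact one_ap _ _
  map_mul' g h := by
    ext u : 2
    change rep (SpRow.inc m F) ((g : symplecticGroup (Fin m) F) * h) (u : Fin m ⊕ Fin m → F) = _
    exact mul_ap _ _ _ _

theorem act_apply (hU : ND (SpRow.frm m F) U) (g : GV U) (u : U) :
    ((act hU g u : U) : Fin m ⊕ Fin m → F) = rep (SpRow.inc m F) (g : symplecticGroup (Fin m) F) u := rfl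

theorem GV_iso (U : Submodule F (Fin m ⊕ Fin m → F)) (hU : ND (SpRow.frm m F) U) :
    ∃ k : ℕ, finrank F U = 2 * k ∧ Nonempty (GV (m := m) U ≃* symplecticGroup (Fin k) F) := by
  classical
  have : Fintype F := Fintype.ofFinite F
  have hc := isCompl_Orth (SpRow.frm m F) U hU
  refine H667.HerFin.exists_sp (act hU) ?_ ((SpRow.frm m F).domRestrict₁₂ U U) ?_ ?_ ?_
  · intro g h hgh
    apply Subtype.ext
    refine eq_of_parts (rep_injective SpRow.inc_injective) hU (fun u hu => ?_) (fun w hw => ?_)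
    · have h1 := congrArg (fun e : U ≃ₗ[F] U => ((e ⟨u, hu⟩ : U) : Fin m ⊕ Fin m → F)) hgh
      exact h1
    · rw [g.2 w hw, h.2 w hw]
  · intro u
    exact frm_self _
  · constructor
    · intro u hu
      apply Subtype.ext
      refine hU u u.2 fun x hx => ?_
      exact frm_eq_zero_comm (hu ⟨x, hx⟩)
    · intro u hu
      apply Subtype.ext
      exact hU u u.2 fun x hx => hu ⟨x, hx⟩
  · intro g
    constructor
    · intro hg
      let A : Module.End F (Fin m ⊕ Fin m → F) :=
        LinearMap.ofIsCompl hc (U.subtype ∘ₗ (g : U →ₗ[F] U)) (Orth (SpRow.frm m F) U).subtype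
      have hA1 : ∀ u : U, A u = (g u : U) := fun u => LinearMap.ofIsCompl_apply_left hc u
      have hA2 : ∀ w ∈ Orth (SpRow.frm m F) U, A w = w := fun w hw => LinearMap.ofIsCompl_apply_right hc ⟨w, hw⟩
      have hAf : ∀ u v, SpRow.frm m F (A u) (A v) = SpRow.frm m F u v := by
        intro x y
        obtain ⟨a, ha, b, hb, rfl⟩ := decomp hU x
        obtain ⟨a', ha', b', hb', rfl⟩ := decomp hU y
        have e1 := hA1 ⟨a, ha⟩
        have e2 := hA1 ⟨a', ha'⟩
        have e3 := hg ⟨a, ha⟩ ⟨a', ha'⟩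
        change SpRow.frm m F ((g ⟨a, ha⟩ : U) : Fin m ⊕ Fin m → F) ((g ⟨a', ha'⟩ : U) : Fin m ⊕ Fin m → F) =
          SpRow.frm m F a a' at e3
        simp only at e1 e2
        simp only [map_add, LinearMap.add_apply]
        rw [e1, e2, hA2 b hb, hA2 b' hb', e3, hb' _ (g ⟨a, ha⟩).2, hb' a ha,
          frm_eq_zero_comm (hb _ (g ⟨a', ha'⟩).2), frm_eq_zero_comm (hb a' ha')]
      obtain ⟨k, hk⟩ := SpRow.exists_of_iso A hAf
      refine ⟨⟨k, fun w hw => ?_⟩, ?_⟩
      · rw [hk, hA2 w hw]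
      · ext u : 2
        rw [act_apply]
        change rep (SpRow.inc m F) k u = _
        rw [hk, hA1]
    · rintro ⟨x, rfl⟩ u v
      change SpRow.frm m F (rep (SpRow.inc m F) (x : symplecticGroup (Fin m) F) u)
        (rep (SpRow.inc m F) (x : symplecticGroup (Fin m) F) v) = SpRow.frm m F u v
      exact SpRow.frm_iso _ _ _

end Cfsg.Agent.H199.DP
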